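import Mathlib

/-!
# Groups with trivially intersecting Sylow subgroups (helper947)

`T` a finite group whose Sylow `p`-subgroups intersect trivially.
* `fix_all` : if `T` has `|P| + 1` Sylow `p`-subgroups, an automorphism of order prime to `p` trivial on one of them
  fixes all of them; `eq_one_of_fix` : it is trivial if `T` is simple;
* `comm_of_comm` : `E ≤ P` abelian of index `p`, `P` non-abelian, `t` a `p'`-element normalising `P` and centralising
  `E`: then `t` centralises `P`;
* `false_of_abelian` : if `|P| = p ^ 3`, `P` non-abelian, the order of an abelian subgroup of order divisible by `p ^ 2`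
  is a power of `p`.
-/

set_option autoImplicit false

namespace Cfsg.Agent.H947.Cyc

open Subgroup
open scoped Pointwise

universe u

variable {T : Type u} [Group T] [Finite T] {p : ℕ} [hp : Fact p.Prime]

omit [Finite T] hp in
theorem sylow_eq_of_mem (hTI : ∀ P Q : Sylow p T, P ≠ Q → (P : Subgroup T) ⊓ Q = ⊥) {P Q : Sylow p T} {z : T}
    (hz1 : z ≠ 1) (hzP : z ∈ (P : Subgroup T)) (hzQ : z ∈ (Q : Subgroup T)) : P = Q := by
  by_contra hne
  have h1 : z ∈ (P : Subgroup T) ⊓ Q := ⟨hzP, hzQ⟩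
  rw [hTI P Q hne, mem_bot] at h1
  exact hz1 h1

omit [Finite T] hp in
/-- an element commuting with `z ∈ P` normalises `P` -/
theorem mem_normalizer_of_comm (hTI : ∀ P Q : Sylow p T, P ≠ Q → (P : Subgroup T) ⊓ Q = ⊥) {P : Sylow p T} {z t : T}
    (hz1 : z ≠ 1) (hzP : z ∈ (P : Subgroup T)) (h : t * z = z * t) : t ∈ normalizer ((P : Subgroup T) : Set T) := by
  refine Sylow.smul_eq_iff_mem_normalizer.1 (sylow_eq_of_mem hTI hz1 ?_ hzP)
  refine ⟨z, hzP, ?_⟩
  change t * z * t⁻¹ = z
  rw [h, mul_inv_cancel_right]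

omit [Finite T] hp in
theorem smul_smul_sylow (a : MulAut T) (x : T) (Q : Sylow p T) : a • (x • Q) = (a x) • (a • Q) := by
  apply Sylow.ext
  ext y
  constructor
  · rintro ⟨_, ⟨z, hz, rfl⟩, rfl⟩
    refine ⟨a z, ⟨z, hz, rfl⟩, ?_⟩
    change (a x) * (a z) * (a x)⁻¹ = a (x * z * x⁻¹)
    simp
  · rintro ⟨_, ⟨z, hz, rfl⟩, rfl⟩
    refine ⟨x * z * x⁻¹, ⟨z, hz, rfl⟩, ?_⟩
    change a (x * z * x⁻¹) = (a x) * (a z) * (a x)⁻¹
    simp

/-- an automorphism of order prime to `p` trivial on `P` fixes all Sylow subgroups -/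
theorem fix_all (hTI : ∀ P Q : Sylow p T, P ≠ Q → (P : Subgroup T) ⊓ Q = ⊥) (P : Sylow p T)
    (hc : Nat.card (Sylow p T) = Nat.card P + 1) {a : MulAut T} (ha : ∀ x ∈ (P : Subgroup T), a x = x) {k : ℕ}
    (hk : a ^ k = 1) (hpk : ¬ p ∣ k) (Q : Sylow p T) : a • Q = Q := by
  classical
  have haP : a • P = P := by
    apply Sylow.ext
    ext y
    constructor
    · rintro ⟨z, hz, rfl⟩
      have : a z = z := ha z hz
      change a z ∈ _
      rw [this]
      exact hz
    · intro hy
      exact ⟨y, hy, ha y hy⟩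
  by_cases hQP : Q = P
  · rw [hQP, haP]
  -- `P` is regular on the others
  have hstab : ∀ x ∈ (P : Subgroup T), x • Q = Q → x = 1 := by
    intro x hx hxQ
    have h0 : (P : Subgroup T) ⊓ normalizer (Q : Set T) = (P : Subgroup T) ⊓ Q :=
      IsPGroup.inf_normalizer_sylow P.isPGroup' Q
    have h1 : x ∈ (P : Subgroup T) ⊓ normalizer (Q : Set T) :=
      ⟨hx, Sylow.smul_eq_iff_mem_normalizer.1 hxQ⟩
    rw [h0, hTI P Q (fun h => hQP h.symm), mem_bot] at h1
    exact h1
  have hne : ∀ x ∈ (P : Subgroup T), x • Q ≠ P := by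
    intro x hx h1
    apply hQP
    have h2 : x⁻¹ • P = P := Sylow.smul_eq_iff_mem_normalizer.2 (inv_mem (le_normalizer hx))
    calc Q = x⁻¹ • (x • Q) := by rw [inv_smul_smul]
      _ = x⁻¹ • P := by rw [h1]
      _ = P := h2
  let f : ↥(P : Subgroup T) → {R : Sylow p T // R ≠ P} := fun x => ⟨(x : T) • Q, hne x x.2⟩
  have hf : Function.Injective f := by
    intro x y hxy
    have h1 : (x : T) • Q = (y : T) • Q := congrArg Subtype.val hxy
    have h2 : ((y : T)⁻¹ * x) • Q = Q := by rw [mul_smul, h1, inv_smul_smul]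
    have h3 := hstab _ ((P : Subgroup T).mul_mem ((P : Subgroup T).inv_mem y.2) x.2) h2
    exact Subtype.ext (inv_mul_eq_one.1 h3).symm
  have hfs : Function.Surjective f := by
    have hfin : Finite (Sylow p T) := inferInstance
    refine (hf.bijective_of_nat_card_le ?_).2
    have h1 := Nat.card_congr (Equiv.sumCompl (fun R : Sylow p T => R = P)).symm
    rw [Nat.card_sum, hc] at h1
    have h2 : Nat.card {R : Sylow p T // R = P} = 1 := by simp
    rw [h2] at h1
    exact (by omega : Nat.card {R : Sylow p T // ¬ R = P} = Nat.card P).le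
  have haQ : a • Q ≠ P := by
    intro h1
    apply hQP
    calc Q = a⁻¹ • (a • Q) := by rw [inv_smul_smul]
      _ = a⁻¹ • P := by rw [h1]
      _ = a⁻¹ • (a • P) := by rw [haP]
      _ = P := by rw [inv_smul_smul]
  obtain ⟨x, hx⟩ := hfs ⟨a • Q, haQ⟩
  have hx' : (x : T) • Q = a • Q := congrArg Subtype.val hx
  have hpow : ∀ j : ℕ, a ^ j • Q = (x : T) ^ j • Q := by
    intro j
    induction j with
    | zero => simp
    | succ j ih =>
      rw [pow_succ', mul_smul, ih, smul_smul_sylow, map_pow, ha x x.2, ← hx', ← mul_smul, pow_succ]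
  have h1 := hpow k
  rw [hk, one_smul] at h1
  have h2 := hstab _ (pow_mem x.2 k) h1.symm
  have h3 : (x : T) = 1 := by
    obtain ⟨m, hm⟩ := P.isPGroup' x
    have hm' : (x : T) ^ p ^ m = 1 := congrArg Subtype.val hm
    have h4 : orderOf (x : T) ∣ Nat.gcd k (p ^ m) := Nat.dvd_gcd (orderOf_dvd_of_pow_eq_one h2) (orderOf_dvd_of_pow_eq_one hm')
    have h5 : Nat.Coprime k (p ^ m) := Nat.Coprime.pow_right m (((Nat.Prime.coprime_iff_not_dvd hp.out).2 hpk).symm)
    rw [h5] at h4
    exact orderOf_eq_one_iff.1 (Nat.dvd_one.1 h4)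
  rw [← hx', h3, one_smul]

/-- an automorphism of order prime to `p` trivial on `P` is trivial -/
theorem eq_one_of_fix [IsSimpleGroup T] (hTI : ∀ P Q : Sylow p T, P ≠ Q → (P : Subgroup T) ⊓ Q = ⊥) (P : Sylow p T)
    (hc : Nat.card (Sylow p T) = Nat.card P + 1) {a : MulAut T} (ha : ∀ x ∈ (P : Subgroup T), a x = x) {k : ℕ}
    (hk : a ^ k = 1) (hpk : ¬ p ∣ k) : a = 1 := by
  have hfix := fix_all hTI P hc ha hk hpk
  -- the intersection of the normalisers
  let K : Subgroup T := ⨅ Q : Sylow p T, normalizer ((Q : Subgroup T) : Set T)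
  have hmem : ∀ g : T, g ∈ K ↔ ∀ Q : Sylow p T, g • Q = Q := by
    intro g
    rw [mem_iInf]
    exact forall_congr' fun Q => Sylow.smul_eq_iff_mem_normalizer.symm
  have hK : K.Normal := by
    constructor
    intro n hn g
    rw [hmem] at hn ⊢
    intro Q
    rw [mul_smul, mul_smul, hn, smul_inv_smul]
  rcases hK.eq_bot_or_eq_top with h1 | h1
  · ext g
    have h2 : g⁻¹ * a g ∈ K := by
      rw [hmem]
      intro Q
      have h3 : a • (g • Q) = g • Q := hfix _
      rw [smul_smul_sylow, hfix] at h3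
      rw [mul_smul, h3, inv_smul_smul]
    rw [h1, mem_bot] at h2
    exact (inv_mul_eq_one.1 h2).symm
  · exfalso
    -- all Sylow subgroups are normal
    have h2 : ∀ Q : Sylow p T, Q = P := by
      intro Q
      obtain ⟨g, rfl⟩ := MulAction.exists_smul_eq T P Q
      exact (hmem g).1 (h1 ▸ mem_top g) P
    have h3 : Subsingleton (Sylow p T) := ⟨fun Q R => (h2 Q).trans (h2 R).symm⟩
    have h4 : Nat.card (Sylow p T) ≤ 1 := Finite.card_le_one_iff_subsingleton.2 h3
    have h5 : 0 < Nat.card P := Nat.card_pos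
    omega

omit [Finite T] in
/-- a `p'`-element normalising `P` and centralising an abelian subgroup of index `p` of the non-abelian group `P`
centralises `P` -/
theorem comm_of_comm {P E : Subgroup T} [Finite P] (hP : IsPGroup p P) (hEP : E ≤ P) (hE : E.relIndex P = p)
    (hab : ∀ x ∈ E, ∀ y ∈ E, x * y = y * x) (hna : ∃ x ∈ P, ∃ y ∈ P, x * y ≠ y * x) {t : T} {k : ℕ} (hk : t ^ k = 1)
    (hpk : ¬ p ∣ k) (htP : ∀ x ∈ P, t * x * t⁻¹ ∈ P) (htE : ∀ e ∈ E, t * e = e * t) (x : T) (hx : x ∈ P) :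
    t * x = x * t := by
  have hEn : (E.subgroupOf P).Normal := by
    apply Subgroup.normal_of_index_eq_minFac_card
    have h1 : (E.subgroupOf P).index = p := hE
    obtain ⟨n, hn⟩ := IsPGroup.iff_card.1 hP
    have hn0 : n ≠ 0 := by
      rintro rfl
      have h2 := (E.subgroupOf P).index_dvd_card
      rw [h1, hn, pow_zero] at h2
      exact hp.out.one_lt.ne' (Nat.dvd_one.1 h2)
    rw [h1, hn, Nat.Prime.pow_minFac hp.out hn0]
  -- `C_P(E) = E`
  have hC : ∀ c ∈ P, (∀ e ∈ E, c * e = e * c) → c ∈ E := by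
    intro c hc hce
    by_contra hcE
    -- `⟨E, c⟩ = P` centralises `E`
    obtain ⟨x, hx, y, hy, hxy⟩ := hna
    have h1 : (E.subgroupOf P) < (E.subgroupOf P) ⊔ zpowers (⟨c, hc⟩ : P) := by
      refine lt_of_le_of_ne le_sup_left fun h2 => hcE ?_
      have h3 : (⟨c, hc⟩ : P) ∈ (E.subgroupOf P) ⊔ zpowers (⟨c, hc⟩ : P) := mem_sup_right (mem_zpowers _)
      rw [← h2] at h3
      exact h3
    have h2 : (E.subgroupOf P) ⊔ zpowers (⟨c, hc⟩ : P) = ⊤ := by
      have h3 : ((E.subgroupOf P) ⊔ zpowers (⟨c, hc⟩ : P)).index ∣ p := by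
        have := Subgroup.index_dvd_of_le h1.le
        have h4 : (E.subgroupOf P).index = p := hE
        rwa [h4] at this
      rcases (Nat.dvd_prime hp.out).1 h3 with h4 | h4
      · exact Subgroup.index_eq_one.1 h4
      · exfalso
        have h5 : (E.subgroupOf P).index = p := hE
        have h6 := (E.subgroupOf P).card_mul_index
        have h7 := ((E.subgroupOf P) ⊔ zpowers (⟨c, hc⟩ : P)).card_mul_index
        rw [h5] at h6
        rw [h4, ← h6] at h7
        have h8 := Nat.eq_of_mul_eq_mul_right hp.out.pos h7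
        exact h1.ne (Subgroup.eq_of_le_of_card_ge h1.le h8.le)
    have h3 : ∀ w : P, ∀ e ∈ E, (w : T) * e = e * w := by
      intro w e he
      have h4 : (E.subgroupOf P) ⊔ zpowers (⟨c, hc⟩ : P) ≤ (centralizer {e}).comap P.subtype := by
        rw [sup_le_iff, zpowers_le]
        constructor
        · intro v hv
          rw [mem_comap, mem_centralizer_singleton_iff]
          exact hab _ hv _ he
        · rw [mem_comap, mem_centralizer_singleton_iff]
          exact hce e he
      have h5 : w ∈ (centralizer {e}).comap P.subtype := h4 (h2 ▸ mem_top w)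
      rw [mem_comap, mem_centralizer_singleton_iff] at h5
      exact h5
    -- `P` is abelian
    have h4 : ∀ w : P, ∀ v : P, w * v = v * w := by
      intro w v
      have h5 : (E.subgroupOf P) ⊔ zpowers (⟨c, hc⟩ : P) ≤ (centralizer {(v : T)}).comap P.subtype := by
        rw [sup_le_iff, zpowers_le]
        constructor
        · intro z hz
          rw [mem_comap, mem_centralizer_singleton_iff]
          exact (h3 v _ hz).symm
        · rw [mem_comap, mem_centralizer_singleton_iff]
          have h6 : (E.subgroupOf P) ⊔ zpowers (⟨c, hc⟩ : P) ≤ (centralizer {c}).comap P.subtype := by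
            rw [sup_le_iff, zpowers_le]
            constructor
            · intro z hz
              rw [mem_comap, mem_centralizer_singleton_iff]
              exact (hce _ hz).symm
            · rw [mem_comap, mem_centralizer_singleton_iff]
              rfl
          have h7 : v ∈ (centralizer {c}).comap P.subtype := h6 (h2 ▸ mem_top v)
          rw [mem_comap, mem_centralizer_singleton_iff] at h7
          exact h7.symm
      have h6 : w ∈ (centralizer {(v : T)}).comap P.subtype := h5 (h2 ▸ mem_top w)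
      rw [mem_comap, mem_centralizer_singleton_iff] at h6
      exact Subtype.ext h6
    exact hxy (congrArg Subtype.val (h4 ⟨x, hx⟩ ⟨y, hy⟩))
  -- `t x t⁻¹ = x e`
  obtain ⟨e, he⟩ : ∃ e, e = x⁻¹ * (t * x * t⁻¹) := ⟨_, rfl⟩
  have heE : e ∈ E := by
    apply hC e (by rw [he]; exact P.mul_mem (P.inv_mem hx) (htP x hx))
    intro f hf
    have h1 : x * f * x⁻¹ ∈ E := by
      have := hEn.conj_mem ⟨f, hEP hf⟩ hf ⟨x, hx⟩
      exact this
    have h2 := htE _ h1
    have h3 := htE _ hf
    have h4 : t⁻¹ * f = f * t⁻¹ := by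
      rw [inv_mul_eq_iff_eq_mul, ← mul_assoc, h3, mul_inv_cancel_right]
    rw [he]
    calc x⁻¹ * (t * x * t⁻¹) * f = x⁻¹ * (t * x) * (t⁻¹ * f) := by group
      _ = x⁻¹ * (t * (x * f * x⁻¹)) * x * t⁻¹ := by rw [h4]; group
      _ = x⁻¹ * ((x * f * x⁻¹) * t) * x * t⁻¹ := by rw [h2]
      _ = _ := by group
  have hte : t * e = e * t := htE _ heE
  have htx : t * x * t⁻¹ = x * e := by rw [he]; group
  have hpow : ∀ j : ℕ, t ^ j * x = x * e ^ j * t ^ j := by
    intro j
    induction j with
    | zero => simp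
    | succ j ih =>
      have h1 : t * x = x * e * t := by rw [← htx]; group
      have h2 : t * e ^ j = e ^ j * t := (Commute.pow_right (show Commute t e from hte) j).eq
      rw [pow_succ', mul_assoc, ih]
      calc t * (x * e ^ j * t ^ j) = (t * x) * e ^ j * t ^ j := by group
        _ = x * e * (t * e ^ j) * t ^ j := by rw [h1]; group
        _ = x * e * (e ^ j * t) * t ^ j := by rw [h2]
        _ = x * (e * e ^ j) * (t * t ^ j) := by group
        _ = _ := by rw [← pow_succ', ← pow_succ']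
  have h1 := hpow k
  rw [hk, one_mul, mul_one] at h1
  have h2 : e ^ k = 1 := by
    have : x * 1 = x * e ^ k := by rw [mul_one]; exact h1
    exact (mul_left_cancel this).symm
  have h3 : e = 1 := by
    obtain ⟨m, hm⟩ := hP ⟨e, hEP heE⟩
    have hm' : e ^ p ^ m = 1 := congrArg Subtype.val hm
    have h4 : orderOf e ∣ Nat.gcd k (p ^ m) := Nat.dvd_gcd (orderOf_dvd_of_pow_eq_one h2) (orderOf_dvd_of_pow_eq_one hm')
    have h5 : Nat.Coprime k (p ^ m) := Nat.Coprime.pow_right m (((Nat.Prime.coprime_iff_not_dvd hp.out).2 hpk).symm)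
    rw [h5] at h4
    exact orderOf_eq_one_iff.1 (Nat.dvd_one.1 h4)
  rw [h3, mul_one] at htx
  rw [mul_inv_eq_iff_eq_mul] at htx
  exact htx

/-- if `|P| = p ^ 3`, `P` non-abelian, the order of an abelian subgroup of order divisible by `p ^ 2` is a power of `p` -/
theorem false_of_abelian [IsSimpleGroup T] (hcen : center T = ⊥)
    (hTI : ∀ P Q : Sylow p T, P ≠ Q → (P : Subgroup T) ⊓ Q = ⊥)
    (hcard : ∀ P : Sylow p T, Nat.card P = p ^ 3) (hc : Nat.card (Sylow p T) = p ^ 3 + 1)
    (hna : ∀ P : Sylow p T, ∃ x ∈ (P : Subgroup T), ∃ y ∈ (P : Subgroup T), x * y ≠ y * x) {A : Subgroup T}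
    (hA : ∀ x ∈ A, ∀ y ∈ A, x * y = y * x) (hA2 : p ^ 2 ∣ Nat.card A) {r : ℕ} (hr : r.Prime) (hrp : r ≠ p)
    (hrA : r ∣ Nat.card A) : False := by
  obtain ⟨E', hE'⟩ := Sylow.exists_subgroup_card_pow_prime (G := A) p hA2
  let E : Subgroup T := E'.map A.subtype
  have hEA : E ≤ A := by
    rintro _ ⟨x, -, rfl⟩
    exact x.2
  have hEcard : Nat.card E = p ^ 2 := by
    rw [← hE']
    exact (Nat.card_congr (E'.equivMapOfInjective _ A.subtype_injective).toEquiv).symm
  have hEp : IsPGroup p E := IsPGroup.of_card hEcard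
  obtain ⟨P, hEP⟩ := hEp.exists_le_sylow
  have : Fact r.Prime := ⟨hr⟩
  obtain ⟨t, ht⟩ := exists_prime_orderOf_dvd_card' (G := A) r hrA
  have htr : (t : T) ^ r = 1 := by
    rw [← ht, ← Subgroup.orderOf_coe]
    exact pow_orderOf_eq_one _
  have hpr : ¬ p ∣ r := fun h => hrp ((Nat.prime_dvd_prime_iff_eq hp.out hr).1 h).symm
  have htE : ∀ e ∈ E, (t : T) * e = e * t := fun e he => hA _ t.2 _ (hEA he)
  obtain ⟨z, hz, hz1⟩ : ∃ z ∈ E, z ≠ 1 := by
    refine (E.bot_or_exists_ne_one).resolve_left fun h => ?_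
    rw [h, Subgroup.card_bot] at hEcard
    have := Nat.one_lt_pow (n := 2) (by norm_num) hp.out.one_lt
    omega
  have htN : (t : T) ∈ normalizer ((P : Subgroup T) : Set T) := mem_normalizer_of_comm hTI hz1 (hEP hz) (htE z hz)
  have hcom := comm_of_comm (E := E) (P := (P : Subgroup T)) P.isPGroup' hEP (by
      have h1 := Subgroup.card_mul_index (E.subgroupOf P)
      have h2 : Nat.card (E.subgroupOf (P : Subgroup T)) = p ^ 2 := by
        rw [← hEcard]
        exact Nat.card_congr (Subgroup.subgroupOfEquivOfLe hEP).toEquiv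
      rw [h2, show Nat.card (P : Subgroup T) = p ^ 3 from hcard P, pow_succ p 2] at h1
      exact Nat.eq_of_mul_eq_mul_left (pow_pos hp.out.pos 2) h1)
    (fun x hx y hy => hA x (hEA hx) y (hEA hy)) (hna P) htr hpr (fun x hx => (mem_normalizer_iff.1 htN x).1 hx) htE
  have h1 : MulAut.conj (t : T) = 1 := by
    refine eq_one_of_fix (k := r) hTI P (by rw [hc, hcard P]) (fun x hx => ?_) ?_ hpr
    · rw [MulAut.conj_apply, hcom x hx, mul_inv_cancel_right]
    · rw [← map_pow, htr]
      exact map_one _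
  have h2 : (t : T) ∈ center T := by
    rw [mem_center_iff]
    intro g
    have h3 : MulAut.conj (t : T) g = g := by rw [h1]; rfl
    rw [MulAut.conj_apply, mul_inv_eq_iff_eq_mul] at h3
    exact h3.symm
  rw [hcen, mem_bot] at h2
  have h4 : t = 1 := Subtype.ext h2
  rw [h4, orderOf_one] at ht
  exact hr.one_lt.ne ht

end Cfsg.Agent.H947.Cyc
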